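import Cfsg.Agent.H735.RegPair

/-!
# Regular unipotent elements are not central in `U` (helper735)

`S : Sys Δ G r`, `G` finite and faithful, `Δ` thick.

* `exists_root_fix` : root elements which moreover fix a chamber at distance `s i * w₀`;
* `exists_not_comm` : a simple group has no building of reducible type;
* `not_central` : if the rank is at least two and `G` is simple, a regular element of `U c` does not centralise `U c`;
* `exists_reg_and` : a regular element which is not centralised by a Sylow `p`-subgroup and does not centralise `U c`.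
-/

set_option autoImplicit false
set_option linter.unusedSectionVars false

namespace Cfsg.Agent.H735.RegPair

open Cfsg.Agent.Tits.Core Cfsg.Agent.Tits.Core.Bldg Cfsg.Agent.Tits Cfsg.Agent.Tits.Opp Cfsg.Agent.Tits.OppRes
open Cfsg.Agent.FixBN (Sys HasSplit Split)
open Cfsg.Agent.H716.RegUni

variable {I : Type*} {M : CoxeterMatrix I} {W : Type*} [Group W] {cs : CoxeterSystem M W} {C : Type*}
variable {Δ : Bldg cs C} {G : Type*} [Group G] [MulAction G C] {r : ℕ}

local prefix:100 "s" => cs.simple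
local prefix:100 "ℓ" => cs.length

variable (S : Sys Δ G r) [F : OppRes.Cox cs]

/-- **Root elements** (as `exists_root`), with a fixed chamber at distance `s i * w₀`. -/
theorem exists_root_fix [Finite W] {c e e' : C} {i : I} (he : Δ.δ c e = s i) (he' : Δ.δ c e' = s i) :
    ∃ x ∈ S.U c, x • e = e' ∧ (∀ j, j ≠ i → ∀ z ∈ Δ.Pan j c, x • z = z) ∧
      ∃ f, Δ.δ c f = s i * w0 cs ∧ x • f = f := by
  obtain ⟨k, -, hk⟩ := F.exists_opJ (J := Set.univ) (Set.mem_univ i)
  change w0 cs * s k = s i * w0 cs at hk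
  have hlw : ℓ (s i * w0 cs) + 1 = ℓ (w0 cs) := by
    have := F.len_mul_w0 (s i)
    rwa [cs.length_simple] at this
  -- the chamber `f`
  obtain ⟨f, hf⟩ := Opp.exists_delta Δ c (s i * w0 cs)
  have hfc : Δ.δ f c = w0 cs * s i := by
    rw [Δ.symm c f, hf, mul_inv_rev, cs.inv_simple, F.w0_inv]
  have hlw' : ℓ (w0 cs * s i) + 1 = ℓ (w0 cs) := by
    have := F.len_w0_mul (s i)
    rwa [cs.length_simple] at this
  have hopp : ∀ a, Δ.δ c a = s i → Δ.δ a f = w0 cs := by
    intro a ha
    have h1 := Δ.step_lt f c a i ha (by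
      rw [hfc, cs.simple_mul_simple_cancel_right]
      omega)
    rw [Δ.symm f a, h1, hfc, cs.simple_mul_simple_cancel_right, F.w0_inv]
  -- the chamber `d` attached to `a`
  have hd : ∀ a, Δ.δ c a = s i → ∃ d, Δ.δ f d = s k ∧ Δ.δ a d = s i * w0 cs ∧ Δ.δ c d = w0 cs := by
    intro a ha
    obtain ⟨d, h1, h2⟩ := Δ.exists_step a f k
    rw [hopp a ha, hk] at h2
    refine ⟨d, h1, h2, ?_⟩
    have h3 := add_of_length Δ (x := c) (y := a) (z := d) (by
      rw [ha, h2, cs.simple_mul_simple_cancel_left, cs.length_simple]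
      omega)
    rw [h3, ha, h2, cs.simple_mul_simple_cancel_left]
  obtain ⟨d, hfd, hed, hcd⟩ := hd e he
  obtain ⟨d', hfd', hed', hcd'⟩ := hd e' he'
  obtain ⟨x, hx, hxd⟩ := S.trans c d d' hcd hcd'
  have hxc := S.fix c x hx
  have hxe : x • e = e' := by
    refine eq_of_length Δ (x := c) (z := d') (w := s i) (v := s i * w0 cs) ?_ ?_ he' ?_ hed'
    · rw [cs.simple_mul_simple_cancel_left, cs.length_simple]
      omega
    · conv_lhs => rw [← hxc]
      rw [S.iso, he]
    · rw [← hxd, S.iso, hed]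
  have hxf : x • f = f := by
    refine eq_of_length Δ (x := c) (z := d') (w := s i * w0 cs) (v := s k) ?_ ?_ hf ?_ hfd'
    · rw [← hk, cs.simple_mul_simple_cancel_right, cs.length_simple, hk]
      omega
    · conv_lhs => rw [← hxc]
      rw [S.iso, hf]
    · rw [← hxd, S.iso, hfd]
  refine ⟨x, hx, hxe, fun j hj z hz => ?_, f, hf, hxf⟩
  have hl2 : ℓ (s j * Δ.δ c f) < ℓ (Δ.δ c f) := by
    rw [hf, ← mul_assoc]
    have h1 := F.len_mul_w0 (s j * s i)
    rw [length_simple_mul_simple hj] at h1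
    omega
  obtain ⟨g, hg, hgf, -⟩ := exists_first hl2
  exact S.pan c g j hg x hx (smul_first S hl2 hg hgf hxc hxf) z hz

theorem mem_U_of_fix {c y : C} {g : G} (hg : g ∈ S.U c) (hgy : g • y = y) : g ∈ S.U y := by
  refine S.max y (Subgroup.zpowers g) ?_ ?_ (Subgroup.mem_zpowers g)
  · exact (S.isP c).to_le (Subgroup.zpowers_le.2 hg)
  · intro v hv
    have h1 : Subgroup.zpowers g ≤ MulAction.stabilizer G y := Subgroup.zpowers_le.2 hgy
    exact h1 hv

theorem conj_mem_U_smul {c : C} (g : G) {u : G} (hu : u ∈ S.U c) : g * u * g⁻¹ ∈ S.U (g • c) := by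
  have h1 : (S.U c).map (MulAut.conj g).toMonoidHom ≤ S.U (g • c) := by
    refine S.max _ _ ((S.isP c).map _) ?_
    rintro _ ⟨v, hv, rfl⟩
    simp only [MulEquiv.coe_toMonoidHom, MulAut.conj_apply]
    rw [mul_smul, mul_smul, inv_smul_smul, S.fix c v hv]
  exact h1 ⟨u, hu, by simp⟩

include S in
/-- the group is transitive on each panel -/
theorem exists_smul_eq (hth : Δ.Thick) {c y : C} {j : I} (hy : Δ.δ c y = s j) : ∃ g : G, g • c = y := by
  obtain ⟨a, b, hab, ha, hb⟩ := hth c j
  have hex : ∃ e, Δ.δ c e = s j ∧ e ≠ y := by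
    by_cases h : a = y
    · exact ⟨b, hb, fun h' => hab (h.trans h'.symm)⟩
    · exact ⟨a, ha, h⟩
  obtain ⟨e, he, hey⟩ := hex
  obtain ⟨d, hd⟩ := Opp.exists_delta Δ e (s j * w0 cs)
  have hlw : ℓ (s j * w0 cs) + 1 = ℓ (w0 cs) := by
    have := F.len_mul_w0 (s j)
    rwa [cs.length_simple] at this
  have key : ∀ x, Δ.δ x e = s j → Δ.δ x d = w0 cs := by
    intro x hx
    have h3 := add_of_length Δ (x := x) (y := e) (z := d) (by
      rw [hx, hd, cs.simple_mul_simple_cancel_left, cs.length_simple]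
      omega)
    rw [h3, hx, hd, cs.simple_mul_simple_cancel_left]
  have hye : Δ.δ y e = s j := by
    have h1 := Δ.step y c e j he
    have h2 : Δ.δ y c = s j := by rw [Δ.symm c y, hy, cs.inv_simple]
    rw [h2, cs.simple_mul_simple_self] at h1
    rcases h1 with h1 | h1
    · exact absurd ((Δ.eq_one y e).1 h1).symm hey
    · exact h1
  have h1 : Δ.Opp d c := by
    change Δ.δ d c = w0 cs
    rw [Δ.symm c d, key c he, F.w0_inv]
  have h2 : Δ.Opp d y := by
    change Δ.δ d y = w0 cs
    rw [Δ.symm y d, key y hye, F.w0_inv]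
  obtain ⟨g, -, hg⟩ := S.trans d c y h1 h2
  exact ⟨g, hg⟩

theorem length_three {i j : I} (hne : s i * s j ≠ s j * s i) : ℓ (s i * s j * s i) = 3 := by
  have hij : i ≠ j := by
    rintro rfl
    exact hne rfl
  have h2 : ℓ (s i * s j) = 2 := length_simple_mul_simple hij
  rcases cs.length_mul_simple (s i * s j) i with h | h
  · rw [h, h2]
  · exfalso
    have h3 : ℓ (s i * s j * s i) = 1 := by omega
    obtain ⟨k, hk⟩ := cs.length_eq_one_iff.1 h3
    have hmem : s k ∈ WJ cs {i, j} := by
      rw [← hk]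
      exact mul_mem (mul_mem (simple_mem_WJ (by simp)) (simple_mem_WJ (by simp))) (simple_mem_WJ (by simp))
    have hlt : ℓ (s k * s k) < ℓ (s k) := by
      rw [cs.simple_mul_simple_self, cs.length_one, cs.length_simple]
      exact Nat.one_pos
    have hk2 := F.descent_mem _ _ hmem k hlt
    rcases hk2 with h5 | h5
    · rw [h5] at hk
      have h4 : s i * s j = 1 := by
        have := congrArg (· * s i) hk
        simpa [mul_assoc] using this
      rw [h4, cs.length_one] at h2
      omega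
    · have h5' : k = j := h5
      rw [h5'] at hk
      have h4 := congrArg (· * s i) hk
      simp only [mul_assoc, cs.simple_mul_simple_self, mul_one] at h4
      exact hne h4

/-- the elements commuting with `x` and stabilising the panel of type `j` of `c` -/
def panCent (c : C) (j : I) (x : G) : Subgroup G where
  carrier := {g | g * x = x * g ∧ g • c ∈ Δ.Res {j} c}
  one_mem' := ⟨by simp, by rw [one_smul]; exact OppRes.mem_Res_self _ c⟩
  mul_mem' := fun {a b} ha hb => by
    refine ⟨by rw [mul_assoc, hb.1, ← mul_assoc, ha.1, mul_assoc], ?_⟩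
    have h1 : Δ.δ c (a • c) ∈ WJ cs {j} := ha.2
    have h2 : Δ.δ c (b • c) ∈ WJ cs {j} := hb.2
    change Δ.δ c ((a * b) • c) ∈ WJ cs {j}
    refine OppRes.delta_mem_of_mem h1 ?_
    rw [mul_smul, S.iso]
    exact h2
  inv_mem' := fun {a} ha => by
    refine ⟨by rw [inv_mul_eq_iff_eq_mul, ← mul_assoc, ha.1, mul_assoc, mul_inv_cancel, mul_one], ?_⟩
    have h1 : Δ.δ c (a • c) ∈ WJ cs {j} := ha.2
    change Δ.δ c (a⁻¹ • c) ∈ WJ cs {j}
    have h2 := S.iso a c (a⁻¹ • c)
    rw [smul_inv_smul] at h2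
    rw [← h2, Δ.symm c (a • c)]
    exact inv_mem h1

/-- An `r`-element of `panCent` fixing exactly one or no chamber of the orbit. -/
theorem card_orbit_modEq [Finite G] [hr : Fact r.Prime] {c : C} {j : I} {x : G} {w : G} (hw : w ∈ panCent S c j x)
    {y : C} (hwy : w ∈ S.U y) :
    Nat.card (MulAction.orbit (panCent S c j x) c) ≡
      Nat.card {z : MulAction.orbit (panCent S c j x) c // w • (z : C) = z} [MOD r] := by
  let K := panCent S c j x
  let H : Subgroup K := Subgroup.zpowers ⟨w, hw⟩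
  have hH : IsPGroup r H := by
    intro h
    obtain ⟨k, hk⟩ := (S.isP y) ⟨w, hwy⟩
    have hk' : w ^ r ^ k = 1 := by
      have := congrArg Subtype.val hk
      simpa using this
    obtain ⟨n, hn⟩ := h.2
    refine ⟨k, ?_⟩
    apply Subtype.ext
    rw [Subgroup.coe_pow, ← hn, Subgroup.coe_one]
    apply Subtype.ext
    simp only [Subgroup.coe_pow, Subgroup.coe_zpow, Subgroup.coe_one]
    rw [← zpow_natCast, ← zpow_mul, mul_comm, zpow_mul, zpow_natCast, hk', one_zpow]
  have hfin : Finite (MulAction.orbit K c) := by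
    have : Finite K := inferInstance
    exact Set.finite_coe_iff.2 (Set.finite_range _)
  have h1 := hH.card_modEq_card_fixedPoints (MulAction.orbit K c)
  have h2 : Nat.card (MulAction.fixedPoints H (MulAction.orbit K c)) =
      Nat.card {z : MulAction.orbit K c // w • (z : C) = z} := by
    refine Nat.card_congr (Equiv.subtypeEquivRight fun z => ?_)
    constructor
    · intro hz
      have h3 := hz ⟨⟨w, hw⟩, Subgroup.mem_zpowers _⟩
      exact congrArg Subtype.val h3
    · intro hz h
      have h3 : (⟨w, hw⟩ : K) ∈ MulAction.stabilizer K z := by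
        rw [MulAction.mem_stabilizer_iff]
        exact Subtype.ext hz
      have h4 : H ≤ MulAction.stabilizer K z := Subgroup.zpowers_le.2 h3
      exact h4 h.2
  rw [h2] at h1
  exact h1

include S in
/-- **A regular element does not centralise `U c`** (two non-commuting simple reflections). -/
theorem not_central_of_not_comm [Finite G] [Finite W] [hr : Fact r.Prime] (hth : Δ.Thick) {c : C} {i j : I}
    (hne : s i * s j ≠ s j * s i) {u : G} (hu : Reg S c u) (hcen : ∀ v ∈ S.U c, v * u = u * v) : False := by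
  classical
  have hij : i ≠ j := by
    rintro rfl
    exact hne rfl
  obtain ⟨a, b, hab, ha, hb⟩ := hth c i
  obtain ⟨x, hx, hxa, hxt, f, hf, hxf⟩ := exists_root_fix S ha hb
  have hxc := S.fix c x hx
  have hl1 : ℓ (s j * Δ.δ c f) < ℓ (Δ.δ c f) := by
    rw [hf, ← mul_assoc]
    have h1 := F.len_mul_w0 (s j * s i)
    rw [length_simple_mul_simple hij.symm] at h1
    have h2 := F.len_mul_w0 (s i)
    rw [cs.length_simple] at h2
    omega
  obtain ⟨y0, hy0, hy0f, -⟩ := exists_first hl1
  have hxy0 : x • y0 = y0 := hxt j hij.symm y0 (Or.inr hy0)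
  have hl2 : ℓ (s i * Δ.δ y0 f) < ℓ (Δ.δ y0 f) := by
    rw [hy0f, hf]
    have h1 := F.len_mul_w0 (s j * s i)
    rw [length_simple_mul_simple hij.symm] at h1
    have h2 := F.len_mul_w0 (s i * s j * s i)
    rw [length_three hne] at h2
    have e1 : s j * (s i * w0 cs) = s j * s i * w0 cs := by rw [mul_assoc]
    have e2 : s i * (s j * (s i * w0 cs)) = s i * s j * s i * w0 cs := by simp only [mul_assoc]
    rw [e2, e1]
    omega
  obtain ⟨z0, hz0, hz0f, -⟩ := exists_first hl2
  have hxz0 : x • z0 = z0 := smul_first S hl2 hz0 hz0f hxy0 hxf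
  have hx0 : x ∈ S.U y0 := mem_U_of_fix S hx hxy0
  have htriv : ∀ z ∈ Δ.Pan i y0, x • z = z := S.pan y0 z0 i hz0 x hx0 hxz0
  -- `x` commutes with the conjugates of `u`
  have hpan : ∀ y, Δ.δ c y = s j → ∃ w ∈ panCent S c j x, w ∈ S.U y ∧ ∀ z, w • z = z → z = y := by
    intro y hy
    obtain ⟨g, hg⟩ := exists_smul_eq S hth hy
    have hw : g * u * g⁻¹ ∈ S.U y := by
      rw [← hg]; exact conj_mem_U_smul S g hu.1
    have hwc : ∀ v ∈ S.U y, v * (g * u * g⁻¹) = g * u * g⁻¹ * v := by
      intro v hv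
      have h1 : g⁻¹ * v * g ∈ S.U c := by
        have h2 := conj_mem_U_smul S g⁻¹ hv
        rw [← hg, inv_smul_smul, inv_inv] at h2
        exact h2
      have h2 := hcen _ h1
      calc v * (g * u * g⁻¹) = g * ((g⁻¹ * v * g) * u) * g⁻¹ := by group
        _ = g * (u * (g⁻¹ * v * g)) * g⁻¹ := by rw [h2]
        _ = _ := by group
    have hxy : x ∈ S.U y := mem_U_of_fix S hx (hxt j hij.symm y (Or.inr hy))
    have hwreg : ∀ i, ∃ z, Δ.δ y z = s i ∧ (g * u * g⁻¹) • z ≠ z := by
      intro k
      obtain ⟨z, hz, hzne⟩ := hu.2 k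
      refine ⟨g • z, by rw [← hg, S.iso, hz], fun h => hzne ?_⟩
      rw [mul_smul, inv_smul_smul, mul_smul] at h
      exact smul_left_cancel g h
    refine ⟨g * u * g⁻¹, ⟨(hwc x hxy).symm, ?_⟩, hw, fun z hz => eq_of_fix S hw hwreg hz⟩
    change Δ.δ c ((g * u * g⁻¹) • c) ∈ WJ cs {j}
    have h1 : Δ.δ c y ∈ WJ cs {j} := by rw [hy]; exact simple_mem_WJ rfl
    refine OppRes.delta_mem_of_mem h1 ?_
    have h2 := S.iso (g * u * g⁻¹) y c
    rw [S.fix y _ hw] at h2
    rw [h2, Δ.symm c y]
    exact inv_mem h1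
  -- the two congruences
  have hcK : u ∈ panCent S c j x := by
    refine ⟨(hcen x hx).symm, ?_⟩
    rw [S.fix c u hu.1]
    exact OppRes.mem_Res_self _ c
  have h1 := card_orbit_modEq S hcK hu.1
  have h2 : Nat.card {z : MulAction.orbit (panCent S c j x) c // u • (z : C) = z} = 1 := by
    rw [Nat.card_eq_one_iff_unique]
    refine ⟨⟨fun z z' => ?_⟩, ⟨⟨⟨c, MulAction.mem_orbit_self c⟩, S.fix c u hu.1⟩⟩⟩
    apply Subtype.ext
    apply Subtype.ext
    rw [eq_of_fix S hu.1 hu.2 z.2, eq_of_fix S hu.1 hu.2 z'.2]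
  obtain ⟨w, hwK, hwU, hwf⟩ := hpan y0 hy0
  have h3 := card_orbit_modEq S hwK hwU
  by_cases hmem : y0 ∈ MulAction.orbit (panCent S c j x) c
  · obtain ⟨g, hg⟩ := hmem
    have hg' : (g : G) • c = y0 := hg
    have h4 : x • ((g : G) • a) = (g : G) • a := by
      refine htriv _ (Or.inr ?_)
      rw [← hg', S.iso, ha]
    rw [← mul_smul, ← g.2.1, mul_smul, hxa] at h4
    exact hab (smul_left_cancel (g : G) h4).symm
  · have h4 : Nat.card {z : MulAction.orbit (panCent S c j x) c // w • (z : C) = z} = 0 := by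
      rw [Nat.card_eq_zero]
      left
      constructor
      rintro ⟨z, hz⟩
      apply hmem
      rw [← hwf z hz]
      exact z.2
    rw [h2] at h1
    rw [h4] at h3
    have h5 : 1 ≡ 0 [MOD r] := h1.symm.trans h3
    have h6 := (Nat.modEq_zero_iff_dvd.1 h5)
    exact hr.1.one_lt.ne' (Nat.dvd_one.1 h6)

end Cfsg.Agent.H735.RegPair
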