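import Cfsg.Agent.H735.RegCentral

/-!
# Irreducibility and the pairs `{r, q}` (helper735)

* `exists_not_comm` : if a simple group has a thick building of rank at least two, then two simple reflections do not
  commute;
* `exists_reg_central` : a regular element which is not centralised by a Sylow `p`-subgroup and does not centralise
  `U c` (`U c` nonabelian or rank at least two).
-/

set_option autoImplicit false
set_option linter.unusedSectionVars false

namespace Cfsg.Agent.H735.RegPair

open Cfsg.Agent.Tits.Core Cfsg.Agent.Tits.Core.Bldg Cfsg.Agent.Tits Cfsg.Agent.Tits.Opp Cfsg.Agent.Tits.OppRes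
open Cfsg.Agent.FixBN (Sys HasSplit Split)
open Cfsg.Agent.H716.RegUni

variable {I : Type*} {M : CoxeterMatrix I} {W : Type*} [Group W] {cs : CoxeterSystem M W} {C : Type*}
variable {Δ : Bldg cs C} {G : Type*} [Group G] [MulAction G C] {r : ℕ}

local prefix:100 "s" => cs.simple
local prefix:100 "ℓ" => cs.length

variable (S : Sys Δ G r) [F : OppRes.Cox cs]

/-- the elements stabilising all the panels of type `j` -/
def panKer (S : Sys Δ G r) (j : I) : Subgroup G where
  carrier := {g | ∀ z : C, Δ.δ z (g • z) ∈ WJ cs {j}}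
  one_mem' := fun z => by
    rw [one_smul, OppRes.delta_self]
    exact one_mem _
  mul_mem' := fun {a b} ha hb z => by
    rw [mul_smul]
    exact OppRes.delta_mem_of_mem (hb z) (ha (b • z))
  inv_mem' := fun {a} ha z => by
    have h1 := ha (a⁻¹ • z)
    rw [smul_inv_smul, Δ.symm z (a⁻¹ • z)] at h1
    have h2 := inv_mem h1
    rwa [inv_inv] at h2

theorem panKer_normal (j : I) : (panKer S j).Normal := by
  constructor
  intro n hn g z
  have h1 := hn (g⁻¹ • z)
  have h2 := S.iso g (g⁻¹ • z) (n • (g⁻¹ • z))
  rw [smul_inv_smul] at h2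
  rw [← h2] at h1
  rw [mul_smul, mul_smul]
  exact h1

include S in
/-- **A simple group has no building of reducible type.** -/
theorem exists_not_comm [Finite W] [IsSimpleGroup G] (hth : Δ.Thick) (c : C) {i j : I} (hij : i ≠ j) :
    ∃ a b : I, s a * s b ≠ s b * s a := by
  classical
  by_contra hcon
  push Not at hcon
  let J : Set I := {k | k ≠ j}
  -- `s j` is central
  have hcen : ∀ w : W, w * s j = s j * w := by
    intro w
    induction w using cs.simple_induction_right with
    | one => rw [one_mul, mul_one]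
    | mul_simple_right w k ih => rw [mul_assoc, hcon k j, ← mul_assoc, ih, mul_assoc]
  have hdec : ∀ w : W, w ∈ WJ cs J ∨ w * s j ∈ WJ cs J := by
    intro w
    induction w using cs.simple_induction_right with
    | one => exact Or.inl (one_mem _)
    | mul_simple_right w k ih =>
      by_cases hk : k = j
      · subst hk
        rcases ih with h | h
        · right
          rw [mul_assoc, cs.simple_mul_simple_self, mul_one]
          exact h
        · exact Or.inl h
      · rcases ih with h | h
        · exact Or.inl (mul_mem h (simple_mem_WJ hk))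
        · right
          rw [mul_assoc, hcon k j, ← mul_assoc]
          exact mul_mem h (simple_mem_WJ hk)
  have hw0 : s j * w0 cs ∈ WJ cs J := by
    rcases hdec (w0 cs) with h | h
    · exfalso
      refine (F.descent_mem J _ h j ?_) rfl
      have h1 := F.len_w0_mul (s j)
      rw [cs.length_simple] at h1
      omega
    · rw [← hcen]; exact h
  have hwJ : s j * w0 cs = wJ cs J := by
    refine F.eq_wJ_of_descents hw0 fun k hk => ?_
    have hk' : k ≠ j := hk
    have h1 := F.len_w0_mul (s j * s k)
    rw [length_simple_mul_simple (fun h => hk' h.symm)] at h1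
    have h2 := F.len_w0_mul (s j)
    rw [cs.length_simple] at h2
    have e1 : s j * w0 cs * s k = w0 cs * (s j * s k) := by
      rw [← hcen (w0 cs), mul_assoc]
    rw [e1, ← hcen (w0 cs)]
    omega
  -- a root element for `j`
  obtain ⟨a, b, hab, ha, hb⟩ := hth c j
  obtain ⟨x, hx, hxa, hxt, f, hf, hxf⟩ := exists_root_fix S ha hb
  have hres : ∀ z ∈ Δ.Res J c, x • z = z := by
    refine Rigid.rigid (Δ := Δ) (Δ' := Δ) hth (J := J) (c := c) (d := f) (φ := fun y => x • y) (ψ := fun y => y)
      (fun a _ b _ => S.iso x a b) (fun a _ b _ => rfl) (fun k hk y hy => hxt k hk y hy) ?_ hxf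
    rw [hf, hwJ]
  have hxN : x ∈ panKer S j := by
    intro z
    obtain ⟨z', hz1, hz2⟩ : ∃ z', Δ.δ z z' ∈ WJ cs {j} ∧ z' ∈ Δ.Res J c := by
      rcases hdec (Δ.δ c z) with h | h
      · exact ⟨z, by rw [OppRes.delta_self]; exact one_mem _, h⟩
      · obtain ⟨z', h1, h2⟩ := Δ.exists_step c z j
        refine ⟨z', by rw [h1]; exact simple_mem_WJ rfl, ?_⟩
        change Δ.δ c z' ∈ WJ cs J
        rw [h2]
        exact h
    refine OppRes.delta_mem_of_mem hz1 ?_
    have h1 := S.iso x z' z
    rw [hres z' hz2] at h1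
    rw [h1, Δ.symm z z']
    exact inv_mem hz1
  have hN := panKer_normal S j
  rcases hN.eq_bot_or_eq_top with h | h
  · rw [h, Subgroup.mem_bot] at hxN
    rw [hxN, one_smul] at hxa
    exact hab hxa
  · obtain ⟨a, b, hab, ha, hb⟩ := hth c i
    obtain ⟨y, hy, hya, -⟩ := exists_root S ha hb
    have hyN : y ∈ panKer S j := by rw [h]; trivial
    have h1 : Δ.δ a (y • a) ∈ WJ cs {j} := hyN a
    rw [hya] at h1
    have h2 : Δ.δ a b ∈ WJ cs {i} :=
      OppRes.delta_mem_of_Res (x := c) (by change Δ.δ c a ∈ WJ cs {i}; rw [ha]; exact simple_mem_WJ rfl)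
        (by change Δ.δ c b ∈ WJ cs {i}; rw [hb]; exact simple_mem_WJ rfl)
    have h3 := F.WJ_inter h1 h2
    have h4 : ({j} ∩ {i} : Set I) = ∅ := by
      ext k
      simp only [Set.mem_inter_iff, Set.mem_singleton_iff, Set.mem_empty_iff_false, iff_false, not_and]
      rintro rfl h
      exact hij h.symm
    rw [h4] at h3
    have h5 : Δ.δ a b = 1 := by
      have h6 : WJ cs (∅ : Set I) = ⊥ := by rw [WJ, Set.image_empty, Subgroup.closure_empty]
      rw [h6] at h3
      exact Subgroup.mem_bot.1 h3
    exact hab ((Δ.eq_one a b).1 h5)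

variable [Finite W] [Finite I]

/-- **The pairs `{r, q}`.** -/
theorem exists_reg_central [Finite G] [IsSimpleGroup G] [Nonempty I] {p : ℕ} [hp : Fact p.Prime]
    [hr : Fact r.Prime] (hpr : p ≠ r) (hth : Δ.Thick) (c : C) (hfaith : ∀ g : G, (∀ x : C, g • x = x) → g = 1)
    (hab : ∀ x y : G, x • c = c → y • c = c → x * y * x⁻¹ * y⁻¹ ∈ S.U c) (hd : p ∣ Nat.card G)
    (hU : (∃ i j : I, i ≠ j) ∨ ∃ x ∈ S.U c, ∃ y ∈ S.U c, x * y ≠ y * x) :
    ∃ u, Reg S c u ∧ (∀ P : Sylow p G, ∃ g ∈ P, g * u ≠ u * g) ∧ ∃ v ∈ S.U c, v * u ≠ u * v := by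
  classical
  by_cases h : ∃ i j : I, i ≠ j
  · obtain ⟨i, j, hij⟩ := h
    obtain ⟨a, b, hne⟩ := exists_not_comm S hth c hij
    obtain ⟨u, hu, hu'⟩ := exists_reg S hpr hth c hfaith hab hd
    refine ⟨u, hu, hu', ?_⟩
    by_contra hcon
    push Not at hcon
    exact not_central_of_not_comm S hth hne hu hcon
  · obtain ⟨x, hx, y, hy, hxy⟩ := hU.resolve_left h
    push Not at h
    obtain ⟨i, A, hA, hVA, hpA⟩ := exists_panel_subgroup S hpr hth c hfaith hab hd
    have hB : Subgroup.center ↥(S.U c) ≠ ⊤ := by
      intro hc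
      have h1 : (⟨x, hx⟩ : ↥(S.U c)) ∈ Subgroup.center ↥(S.U c) := by rw [hc]; trivial
      have h2 := (Subgroup.mem_center_iff.1 h1) ⟨y, hy⟩
      exact hxy (congrArg Subtype.val h2).symm
    -- rank one: everything is one panel
    have hone : ∀ z : C, z ∈ Δ.Pan i c := by
      intro z
      have h1 : Δ.δ c z ∈ WJ cs {i} := by
        have h2 : ({i} : Set I) = Set.univ := by
          ext k
          simp only [Set.mem_singleton_iff, Set.mem_univ, iff_true]
          exact h k i
        rw [h2, OppRes.WJ_univ]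
        trivial
      by_cases h1' : Δ.δ c z = 1
      · exact Or.inl ((Δ.eq_one c z).1 h1').symm
      · obtain ⟨k, hk, hlt⟩ := F.exists_descent h1 h1'
        have hk' : k = i := hk
        subst hk'
        right
        have h3 : Subgroup.zpowers (s k) = WJ cs {k} := by
          rw [WJ, Set.image_singleton, ← Subgroup.zpowers_eq_closure]
        rw [← h3] at h1
        obtain ⟨n, hn⟩ := h1
        have hn' : s k ^ n = Δ.δ c z := hn
        rcases Int.even_or_odd' n with ⟨m, hm | hm⟩
        · exfalso
          apply h1'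
          rw [← hn', hm, zpow_mul]
          have : s k ^ (2 : ℤ) = 1 := by rw [zpow_two, cs.simple_mul_simple_self]
          rw [this, one_zpow]
        · rw [← hn', hm, zpow_add, zpow_mul]
          have : s k ^ (2 : ℤ) = 1 := by rw [zpow_two, cs.simple_mul_simple_self]
          rw [this, one_zpow, one_mul, zpow_one]
    have hVB : ∀ u : ↥(S.U c), TrivOn Δ c i (u : G) → u ∈ Subgroup.center ↥(S.U c) := by
      intro u hu
      have h1 : (u : G) = 1 := hfaith _ fun z => hu z (hone z)
      have h2 : u = 1 := Subtype.ext h1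
      rw [h2]
      exact one_mem _
    obtain ⟨u, hu, h1, h2⟩ := exists_reg_of_subgroups S hth c hA hB hVA hVB
    refine ⟨u, hu, hpA u hu h1, ?_⟩
    by_contra hcon
    push Not at hcon
    refine h2 1 ?_
    rw [inv_one, one_mul, mul_one, Subgroup.mem_center_iff]
    intro g
    exact Subtype.ext (hcon g g.2)

end Cfsg.Agent.H735.RegPair
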