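import Cfsg.Agent.H735.RegIrr
import Cfsg.Agent.H716.UniCent

/-!
# Unipotent elements with class size divisible by two given primes (helper735)

`K` simple with a split (B,N)-pair of characteristic `r`, `B / U` abelian (`HasSplitAb r K`; every simple group of Lie
type in characteristic `r` has one, `H716.SplitAb.hasSplitAb_of_lie`).

* `exists_uni_two` : primes `p, q ≠ r` dividing `|K|`: some nontrivial `r`-element `u` has `p` and `q` dividing
  `|K : C_K(u)|`;
* `exists_uni_char` : `q ≠ r` and the Sylow `r`-subgroups nonabelian: the same with `r` and `q`;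
* `exists_uni` : both together; `exists_uni_of_lie`.
-/

set_option autoImplicit false
set_option linter.unusedSectionVars false

namespace Cfsg.Agent.H735.RegLie

open Cfsg Subgroup
open Cfsg.Agent.FixBN Cfsg.Agent.H716.RegUni Cfsg.Agent.H735.RegPair
open Cfsg.Agent.Omega.ML.LieRow.CRB
open Cfsg.Agent.H716.UniCent (exists_sylow_le)

universe u

variable {K : Type u} [Group K] [Finite K] [IsSimpleGroup K] {r : ℕ}

theorem dvd_index_of_sylow {K : Type*} [Group K] [Finite K] {p : ℕ} [hp : Fact p.Prime] {x : K}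
    (h : ∀ P : Sylow p K, ∃ g ∈ P, g * x ≠ x * g) : p ∣ (centralizer ({x} : Set K)).index := by
  by_contra hcon
  obtain ⟨Q, hQ⟩ := exists_sylow_le hcon
  obtain ⟨g, hg, hne⟩ := h Q
  exact hne (mem_centralizer_singleton_iff.1 (hQ hg))

/-- **Two primes different from the characteristic.** -/
theorem exists_uni_two {p q : ℕ} [hp : Fact p.Prime] [hq : Fact q.Prime] [hr : Fact r.Prime] (h : HasSplitAb r K)
    (hpr : p ≠ r) (hqr : q ≠ r) (hdp : p ∣ Nat.card K) (hdq : q ∣ Nat.card K) :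
    ∃ x : K, x ≠ 1 ∧ (∃ k, orderOf x = r ^ k) ∧ p ∣ (centralizer ({x} : Set K)).index ∧
      q ∣ (centralizer ({x} : Set K)).index := by
  obtain ⟨P, U, hne, h, hab⟩ := h
  have hN : ((P.B ⊓ P.N).subgroupOf P.N).Normal := Cfsg.Agent.Tits.OfBN.normal_subgroupOf P
  obtain ⟨M, cs, hcs⟩ := Cfsg.Agent.S0320.result P
  have hI : Finite P.S := FixBN.OfBN.finite_I (Equiv.refl P.S)
  have hIn : Nonempty P.S := hne.to_subtype
  have hcore := Cfsg.Agent.Tits.OfBN.normalCore_eq_bot P hne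
  have hfaith : ∀ g : K, (∀ x : K ⧸ P.B, g • x = x) → g = 1 := by
    intro g hg
    have h1 : g ∈ P.B.normalCore := by
      intro a
      have h2 := hg (QuotientGroup.mk a⁻¹)
      rw [FixBN.OfBN.smul_mk_eq] at h2
      simpa using h2
    rw [hcore] at h1
    exact Subgroup.mem_bot.1 h1
  obtain ⟨x, hx, hx2, hx3⟩ := exists_reg_two (p := p) (q := q) (FixBN.OfBN.sys (Equiv.refl P.S) cs hcs h) hpr hqr
    (Cfsg.Agent.Tits.OfBN.thick P (Equiv.refl P.S) cs hcs) (QuotientGroup.mk (1 : K) : K ⧸ P.B) hfaith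
    (by
      intro a b ha hb
      rw [FixBN.OfBN.smul_mk_eq] at ha hb
      change _ ∈ FixBN.OfBN.UU P U (QuotientGroup.mk (1 : K))
      rw [FixBN.OfBN.mem_UU h]
      have ha' : a ∈ P.B := by simpa using ha
      have hb' : b ∈ P.B := by simpa using hb
      simpa using hab a ha' b hb') hdp hdq
  refine ⟨x, ?_, ?_, dvd_index_of_sylow hx2, dvd_index_of_sylow hx3⟩
  · rintro rfl
    obtain ⟨Q⟩ := (inferInstance : Nonempty (Sylow p K))
    obtain ⟨g, -, hg⟩ := hx2 Q
    exact hg (by rw [mul_one, one_mul])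
  · have h1 : x ∈ FixBN.OfBN.UU P U (QuotientGroup.mk (1 : K)) := hx.1
    obtain ⟨k, hk⟩ := IsPGroup.iff_orderOf.1 (FixBN.OfBN.isP h (QuotientGroup.mk (1 : K))) ⟨x, h1⟩
    exact ⟨k, by rw [← hk, Subgroup.orderOf_mk]⟩

/-- **The characteristic and another prime.** -/
theorem exists_uni_char {q : ℕ} [hq : Fact q.Prime] [hr : Fact r.Prime] (h : HasSplitAb r K)
    (hqr : q ≠ r) (hdq : q ∣ Nat.card K) (R : Sylow r K) (hR : ∃ a ∈ R, ∃ b ∈ R, a * b ≠ b * a) :
    ∃ x : K, x ≠ 1 ∧ (∃ k, orderOf x = r ^ k) ∧ r ∣ (centralizer ({x} : Set K)).index ∧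
      q ∣ (centralizer ({x} : Set K)).index := by
  classical
  obtain ⟨P, U, hne, h, hab⟩ := h
  have hN : ((P.B ⊓ P.N).subgroupOf P.N).Normal := Cfsg.Agent.Tits.OfBN.normal_subgroupOf P
  obtain ⟨M, cs, hcs⟩ := Cfsg.Agent.S0320.result P
  have hI : Finite P.S := FixBN.OfBN.finite_I (Equiv.refl P.S)
  have hIn : Nonempty P.S := hne.to_subtype
  have hcore := Cfsg.Agent.Tits.OfBN.normalCore_eq_bot P hne
  have hfaith : ∀ g : K, (∀ x : K ⧸ P.B, g • x = x) → g = 1 := by
    intro g hg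
    have h1 : g ∈ P.B.normalCore := by
      intro a
      have h2 := hg (QuotientGroup.mk a⁻¹)
      rw [FixBN.OfBN.smul_mk_eq] at h2
      simpa using h2
    rw [hcore] at h1
    exact Subgroup.mem_bot.1 h1
  let S := FixBN.OfBN.sys (Equiv.refl P.S) cs hcs h
  let c : K ⧸ P.B := QuotientGroup.mk (1 : K)
  -- `R` is conjugate to `U c`
  have hRU : ∃ x ∈ S.U c, ∃ y ∈ S.U c, x * y ≠ y * x := by
    obtain ⟨z, hz⟩ := S.exists_fix R R.isPGroup'
    obtain ⟨g, hg⟩ : ∃ g : K, g • z = c := by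
      induction z using QuotientGroup.induction_on with
      | H a =>
        refine ⟨a⁻¹, ?_⟩
        change (QuotientGroup.mk (a⁻¹ * a) : K ⧸ P.B) = QuotientGroup.mk 1
        rw [inv_mul_cancel]
    obtain ⟨a, ha, b, hb, hab'⟩ := hR
    have h1 : ∀ a ∈ R, g * a * g⁻¹ ∈ S.U c := by
      intro a ha
      have h2 : (R : Subgroup K) ≤ S.U z := S.max z R R.isPGroup' hz
      have h3 := conj_mem_U_smul S g (h2 ha)
      rwa [hg] at h3
    refine ⟨_, h1 a ha, _, h1 b hb, fun h2 => hab' ?_⟩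
    have h3 : g * (a * b) * g⁻¹ = g * (b * a) * g⁻¹ := by
      calc g * (a * b) * g⁻¹ = g * a * g⁻¹ * (g * b * g⁻¹) := by group
        _ = g * b * g⁻¹ * (g * a * g⁻¹) := h2
        _ = _ := by group
    exact mul_left_cancel (mul_right_cancel h3)
  obtain ⟨x, hx, hx2, v, hv, hvx⟩ := exists_reg_central (p := q) S hqr
    (Cfsg.Agent.Tits.OfBN.thick P (Equiv.refl P.S) cs hcs) c hfaith
    (by
      intro a b ha hb
      rw [FixBN.OfBN.smul_mk_eq] at ha hb
      change _ ∈ FixBN.OfBN.UU P U (QuotientGroup.mk (1 : K))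
      rw [FixBN.OfBN.mem_UU h]
      have ha' : a ∈ P.B := by simpa using ha
      have hb' : b ∈ P.B := by simpa using hb
      simpa using hab a ha' b hb') hdq (Or.inr hRU)
  refine ⟨x, ?_, ?_, dvd_index_of_sylow fun Q => ?_, dvd_index_of_sylow hx2⟩
  · rintro rfl
    exact hvx (by rw [mul_one, one_mul])
  · have h1 : x ∈ FixBN.OfBN.UU P U (QuotientGroup.mk (1 : K)) := hx.1
    obtain ⟨k, hk⟩ := IsPGroup.iff_orderOf.1 (FixBN.OfBN.isP h (QuotientGroup.mk (1 : K))) ⟨x, h1⟩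
    exact ⟨k, by rw [← hk, Subgroup.orderOf_mk]⟩
  · by_contra hcon
    push Not at hcon
    have hQc : ∀ g ∈ Q, g • c = c := fun g hg => smul_eq_of_comm S hx (hcon g hg)
    have h1 : (Q : Subgroup K) ≤ S.U c := S.max c Q Q.isPGroup' hQc
    have h2 : S.U c = Q := Q.is_maximal' (S.isP c) h1
    have h3 : v ∈ (Q : Subgroup K) := by rw [← h2]; exact hv
    exact hvx (hcon v h3)

/-- **Lie type groups with nonabelian Sylow `r`-subgroups: all pairs of primes.** -/
theorem exists_uni_of_lie {p q : ℕ} (hp : p.Prime) (hq : q.Prime) (hr : r.Prime) (hpq : p ≠ q)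
    (h : IsLieTypeChar r K) (hdp : p ∣ Nat.card K) (hdq : q ∣ Nat.card K)
    (hR : (p ≠ r ∧ q ≠ r) ∨ ∃ R : Sylow r K, ∃ a ∈ R, ∃ b ∈ R, a * b ≠ b * a) :
    ∃ x : K, x ≠ 1 ∧ (∃ k, orderOf x = r ^ k) ∧ p ∣ (centralizer ({x} : Set K)).index ∧
      q ∣ (centralizer ({x} : Set K)).index := by
  have : Fact p.Prime := ⟨hp⟩
  have : Fact q.Prime := ⟨hq⟩
  have : Fact r.Prime := ⟨hr⟩
  have hs := Cfsg.Agent.H716.SplitAb.hasSplitAb_of_lie hr h
  by_cases hpr : p = r
  · subst hpr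
    obtain ⟨R, hR⟩ := hR.resolve_left (fun h => h.1 rfl)
    exact exists_uni_char hs (Ne.symm hpq) hdq R hR
  · by_cases hqr : q = r
    · subst hqr
      obtain ⟨R, hR⟩ := hR.resolve_left (fun h => h.2 rfl)
      obtain ⟨x, h1, h2, h3, h4⟩ := exists_uni_char hs hpq hdp R hR
      exact ⟨x, h1, h2, h4, h3⟩
    · exact exists_uni_two hs hpr hqr hdp hdq

end Cfsg.Agent.H735.RegLie
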